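import Mathlib
import Cfsg.Agent.Class.Sp.Gen

/-!
Coordinate subgroups and short root elements of the symplectic group.
-/

set_option autoImplicit false

namespace Cfsg.Agent.CT.Sp

open Matrix Cfsg Cfsg.Agent.Class.Sp Sum

variable {F : Type*} [Field F] {n : ℕ}

local notation "V" => Fin n ⊕ Fin n → F
local notation "Sp" => Matrix.symplecticGroup (Fin n) F
local notation "B" => sympForm n F

/-- The basis vectors. -/
abbrev bs (F : Type*) [Field F] {n : ℕ} (a : Fin n ⊕ Fin n) : Fin n ⊕ Fin n → F := Pi.single a 1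

/-- The pointwise stabiliser of a set of basis vectors. -/
def Fix (F : Type*) [Field F] {n : ℕ} (A : Fin n ⊕ Fin n → Prop) :
    Subgroup (Matrix.symplecticGroup (Fin n) F) where
  carrier := {g | ∀ a, A a → g • bs F a = bs F a}
  one_mem' _ _ := one_smul _ _
  mul_mem' h1 h2 a ha := by rw [mul_smul, h2 a ha, h1 a ha]
  inv_mem' h a ha := inv_smul_eq_iff.2 (h a ha).symm

theorem Fix_mono {A A' : Fin n ⊕ Fin n → Prop} (h : ∀ a, A' a → A a) : Fix F A ≤ Fix F A' :=
  fun _ hg a ha => hg a (h a ha)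

theorem form_bs (F : Type*) [Field F] {n : ℕ} (a : Fin n ⊕ Fin n) :
    ∃ ε : F, ε ≠ 0 ∧ ∀ x, sympForm n F x (bs F a) = ε * x a.swap := by
  rcases a with a | a
  · exact ⟨1, one_ne_zero, fun x => by rw [form_single_inl_right, one_mul, swap_inl]⟩
  · exact ⟨-1, by simp, fun x => by rw [form_single_inr_right, neg_one_mul, swap_inr]⟩

theorem Fix_coord {A : Fin n ⊕ Fin n → Prop} {g : Sp} (hg : g ∈ Fix F A) {a : Fin n ⊕ Fin n}
    (ha : A a.swap) (x : V) : (g • x) a = x a := by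
  obtain ⟨ε, h, h'⟩ := form_bs F a.swap
  have := form_smul_smul g x (bs F a.swap)
  rw [hg _ ha, h', h', swap_swap] at this
  exact mul_left_cancel₀ h this

theorem Fix_smul {A : Fin n ⊕ Fin n → Prop} {g : Sp} (hg : g ∈ Fix F A) {x : V}
    (hx : ∀ a, ¬ A a → x a = 0) : g • x = x := by
  rw [← Finset.univ_sum_single x, Finset.smul_sum]
  refine Finset.sum_congr rfl fun a _ => ?_
  by_cases h : A a
  · rw [← mul_one (x a), ← smul_eq_mul, Pi.single_smul, smul_smul_comm, hg a h]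
  · simp [hx a h]

theorem Fix_comm {A A' : Fin n ⊕ Fin n → Prop} (h : ∀ a, ¬ A a → A' a.swap) {g g' : Sp}
    (hg : g ∈ Fix F A) (hg' : g' ∈ Fix F A') : g * g' = g' * g := ext_smul fun x => by
  have h1 := Fix_smul hg (x := g' • x - x) fun a ha => sub_eq_zero.2 (Fix_coord hg' (h a ha) x)
  have h2 := Fix_smul hg' (x := g • x - x) fun a ha => sub_eq_zero.2 (Fix_coord hg (by
    by_contra h'; exact ha (by simpa using h _ h')) x)
  rw [smul_sub, sub_eq_iff_eq_add] at h1 h2
  rw [mul_smul, mul_smul, h1, h2]; abel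

theorem tv_mem_Fix {A : Fin n ⊕ Fin n → Prop} {w : V} (h : ∀ a, A a → w a.swap = 0) (c : F) :
    tv w c ∈ Fix F A := fun a ha => tv_smul_of_orth c (by
  obtain ⟨ε, -, h'⟩ := form_bs F a
  rw [form_skew, h', h a ha, mul_zero, neg_zero])

/-- The underlying index. -/
abbrev idx (a : Fin n ⊕ Fin n) : Fin n := Sum.elim id id a

@[simp] theorem idx_swap (a : Fin n ⊕ Fin n) : idx a.swap = idx a := by cases a <;> rfl

/-- Coordinate subspaces. -/
def Wp (F : Type*) [Field F] {n : ℕ} (p : Fin n → Prop) : Submodule F (Fin n ⊕ Fin n → F) where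
  carrier := {v | ∀ a, p (idx a) → v a = 0}
  add_mem' ha hb i hi := by simp [ha i hi, hb i hi]
  zero_mem' _ _ := rfl
  smul_mem' c v ha i hi := by simp [ha i hi]

theorem bs_mem_Wp {p : Fin n → Prop} {a : Fin n ⊕ Fin n} (h : ¬ p (idx a)) : bs F a ∈ Wp F p :=
  fun b hb => Pi.single_eq_of_ne (by rintro rfl; exact h hb) _

theorem nondeg_Wp (p : Fin n → Prop) : Nondeg (Wp F p) := by
  intro u hu hu0
  obtain ⟨a, ha⟩ := Function.ne_iff.1 hu0
  obtain ⟨ε, h, h'⟩ := form_bs F a.swap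
  exact ⟨_, bs_mem_Wp (a := a.swap) fun h => ha (hu a (by simpa using h)),
    by rw [h', swap_swap]; exact mul_ne_zero h ha⟩

theorem TW_le_Fix (p : Fin n → Prop) : TW (Wp F p) ≤ Fix F fun a => p (idx a) :=
  (Subgroup.closure_le _).2 (by
    rintro _ ⟨w, hw, c, rfl⟩; exact tv_mem_Fix (fun a ha => hw _ (by simpa using ha)) c)

theorem smul_mem_Wp {p : Fin n → Prop} {g : Sp} (hg : g ∈ Fix F fun a => p (idx a)) {x : V}
    (hx : x ∈ Wp F p) : g • x ∈ Wp F p := fun a ha => by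
  rw [Fix_coord hg (by simpa using ha), hx a ha]

/-- The elements of the unipotent radical of the stabiliser of `e`. -/
def TT (e w : V) (c : F) : Sp := tv (e + w) 1 * tv w (-1) * tv e (c - 1)

theorem TT_smul {e w : V} (h : B e w = 0) (c : F) (x : V) :
    TT e w c • x = x + B x e • w + (B x w + c * B x e) • e := by
  have h' : B w e = 0 := by rw [form_skew, h, neg_zero]
  simp only [TT, mul_smul, tv_smul, form_add_left, form_add_right, form_smul_left, form_self, h, h']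
  module

theorem conj_TT {g : Sp} {e : V} (h : g • e = e) (w : V) (c : F) :
    g * TT e w c * g⁻¹ = TT e (g • w) c := by
  rw [TT, ← conj_mul, ← conj_mul, conj_tv, conj_tv, conj_tv, smul_add, h, TT]

theorem TT_mul {e w w' : V} (h : B e w = 0) (h' : B e w' = 0) (c c' : F) :
    TT e w c * TT e w' c' = TT e (w + w') (c + c' + B w' w) := ext_smul fun x => by
  have h1 : B w' e = 0 := by rw [form_skew, h', neg_zero]
  rw [mul_smul, TT_smul h, TT_smul h', TT_smul (by rw [form_add_right, h, h', add_zero])]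
  simp only [form_add_left, form_add_right, form_smul_left, form_self, h, h1]
  module

theorem TT_zero (e : V) (c : F) : TT e 0 c = tv e c := by
  simp [TT, tv_zero_vec, tv_mul_tv]

theorem TT_mem_Fix {A : Fin n ⊕ Fin n → Prop} {e w : V} (h : ∀ a, A a → e a.swap = 0)
    (h' : ∀ a, A a → w a.swap = 0) (c : F) : TT e w c ∈ Fix F A :=
  mul_mem (mul_mem (tv_mem_Fix (fun a ha => by simp [h a ha, h' a ha]) _) (tv_mem_Fix h' _))
    (tv_mem_Fix h _)

theorem exists_three (hF : ∃ a : F, a ≠ 0 ∧ a ≠ 1) {W : Submodule F V} (hW : Nondeg W) {w w' : V}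
    (hw : w ∈ W) (hw' : w' ∈ W) (h1 : w ≠ 0) (h2 : w' ≠ 0) (h3 : w + w' ≠ 0) :
    ∃ u ∈ W, B w u ≠ 0 ∧ B w' u ≠ 0 ∧ B (w + w') u ≠ 0 := by
  obtain ⟨a, a0, a1⟩ := hF
  obtain ⟨u, hu, u1, u2⟩ := hW.exists_common hw hw' h1 h2
  by_cases u3 : B (w + w') u = 0
  swap
  · exact ⟨u, hu, u1, u2, u3⟩
  obtain ⟨v, hv, v3⟩ := hW _ (add_mem hw hw') h3
  rw [form_add_left] at u3 v3
  have key : ∀ t : F, B w v + t * B w u ≠ 0 → B w' v + t * B w' u ≠ 0 →
      ∃ u ∈ W, B w u ≠ 0 ∧ B w' u ≠ 0 ∧ B (w + w') u ≠ 0 := fun t p q =>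
    ⟨v + t • u, add_mem hv (W.smul_mem _ hu), by rwa [form_add_right, form_smul_right],
      by rwa [form_add_right, form_smul_right], by
        simp only [form_add_left, form_add_right, form_smul_right]
        exact fun h => v3 (by linear_combination h - t * u3)⟩
  by_contra h
  have k : ∀ t : F, B w v + t * B w u = 0 ∨ B w' v + t * B w' u = 0 := fun t => by
    by_contra h'; exact h (key t (not_or.1 h').1 (not_or.1 h').2)
  have := k 0
  have := k 1
  have := k a
  grind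

theorem geo {W : Submodule F V} (hW : Nondeg W) {x z w : V} (hx : x ∈ W) (hz : z ∈ W) (hw : w ∈ W)
    (x0 : x ≠ 0) (h : B z w ≠ 0) :
    ∃ f ∈ W, (x = f ∨ B x f ≠ 0) ∧ (z = f ∨ B z f ≠ 0) ∧ (w = f ∨ B w f ≠ 0) := by
  have h' : B w z ≠ 0 := by rwa [form_skew, neg_ne_zero]
  by_cases h1 : B x z = 0
  swap
  · exact ⟨z, hz, Or.inr h1, Or.inl rfl, Or.inr h'⟩
  by_cases h2 : B x w = 0
  swap
  · exact ⟨w, hw, Or.inr h2, Or.inr h, Or.inl rfl⟩
  obtain ⟨y, hy, hxy⟩ := hW x hx x0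
  refine ⟨y + ((1 - B w y) / B w z) • z + ((1 - B z y) / B z w) • w,
    add_mem (add_mem hy (W.smul_mem _ hz)) (W.smul_mem _ hw), Or.inr ?_, Or.inr ?_, Or.inr ?_⟩ <;>
    simp [form_add_right, form_smul_right, form_self, *]

end Cfsg.Agent.CT.Sp
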