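import Mathlib
import Cfsg.Agent.CT.SpGeom
import Cfsg.Agent.CT.Cover

/-!
The inductive step of the amalgam presentation of the symplectic group: the unipotent radical of
the stabiliser of a vector.
-/

set_option autoImplicit false

namespace Cfsg.Agent.CT.Sp

open Matrix Cfsg Cfsg.Agent.Class.Sp Sum

variable {F : Type*} [Field F] {n : ℕ} {Γ : Type*} [Group Γ]

local notation "V" => Fin n ⊕ Fin n → F
local notation "Sp" => Matrix.symplecticGroup (Fin n) F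
local notation "B" => sympForm n F

/-- `π` is injective on `A`. -/
def Inj {Γ S : Type*} [Group Γ] [Group S] (π : Γ →* S) (A : Subgroup Γ) : Prop :=
  ∀ g ∈ A, π g = 1 → g = 1

theorem Inj.eq {S : Type*} [Group S] {π : Γ →* S} {A : Subgroup Γ} (h : Inj π A) {a b : Γ}
    (ha : a ∈ A) (hb : b ∈ A) (e : π a = π b) : a = b :=
  inv_mul_eq_one.1 (h _ (mul_mem (inv_mem ha) hb) (by simp [e]))

theorem Inj.commute {S : Type*} [Group S] {π : Γ →* S} {A A' : Subgroup Γ} (h : Inj π (A ⊔ A'))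
    {a b : Γ} (ha : a ∈ A) (hb : b ∈ A') (e : π a * π b = π b * π a) : a * b = b * a :=
  h.eq (mul_mem (Subgroup.mem_sup_left ha) (Subgroup.mem_sup_right hb))
    (mul_mem (Subgroup.mem_sup_right hb) (Subgroup.mem_sup_left ha)) (by simpa using e)

/-- The plane subgroups. -/
abbrev SS (F : Type*) [Field F] {n : ℕ} (j : Fin n) := Fix F fun a : Fin n ⊕ Fin n => idx a ≠ j

/-- The abelian subgroups. -/
abbrev MM (F : Type*) [Field F] {n : ℕ} (i j : Fin n) :=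
  Fix F fun a : Fin n ⊕ Fin n => a ≠ inr i ∧ a ≠ inr j

/-- The smaller symplectic groups. -/
abbrev GG (F : Type*) [Field F] (n k : ℕ) := Fix F fun a : Fin n ⊕ Fin n => (idx a : ℕ) < k

/-- The spaces on which they act. -/
abbrev WW (F : Type*) [Field F] (n k : ℕ) := Wp F fun i : Fin n => (i : ℕ) < k

/-- The planes. -/
abbrev PP (F : Type*) [Field F] {n : ℕ} (j : Fin n) := Wp F fun i : Fin n => i ≠ j

theorem bs_ne_zero (a : Fin n ⊕ Fin n) : bs F a ≠ 0 := by simp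

theorem smul_bs_ne_zero (g : Sp) (a : Fin n ⊕ Fin n) : g • bs F a ≠ 0 :=
  fun h => bs_ne_zero a ((smul_eq_zero_iff_eq g).1 h)

theorem exists_Fix {p : Fin n → Prop} {u v : V} (hu : u ∈ Wp F p) (hv : v ∈ Wp F p) (hu0 : u ≠ 0)
    (hv0 : v ≠ 0) : ∃ g ∈ Fix F fun a => p (idx a), g • u = v := by
  obtain ⟨g, hg, e⟩ := (nondeg_Wp p).exists_TW_smul_eq hu hv hu0 hv0
  exact ⟨g, TW_le_Fix p hg, e⟩

theorem form_e_WW {k : Fin n} {w : V} (hw : w ∈ WW F n (k + 1)) : B (bs F (inl k)) w = 0 := by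
  rw [form_single_inl_left, hw (inr k) (by simp), neg_zero]

theorem TT_f {k : Fin n} {w : V} (hw : w ∈ WW F n (k + 1)) (c : F) :
    TT (bs F (inl k)) w c • bs F (inr k) = bs F (inr k) + w + c • bs F (inl k) := by
  rw [TT_smul (form_e_WW hw), form_single_inr_left, form_single_inr_left, hw (inl k) (by simp)]
  simp

theorem TT_inj {k : Fin n} {w w' : V} (hw : w ∈ WW F n (k + 1)) (hw' : w' ∈ WW F n (k + 1))
    {c c' : F} (h : TT (bs F (inl k)) w c • bs F (inr k) = TT (bs F (inl k)) w' c' • bs F (inr k)) :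
    w = w' ∧ c = c' := by
  rw [TT_f hw, TT_f hw'] at h
  have : c = c' := by
    simpa [hw (inl k) (by simp), hw' (inl k) (by simp)] using congrFun h (inl k)
  simpa [this] using h

theorem exists_TT_f {k : Fin n} {v : V} (hv : v ∈ WW F n k) (h : v (inr k) = 1) :
    ∃ w ∈ WW F n (k + 1), ∃ c, TT (bs F (inl k)) w c • bs F (inr k) = v ∧
      ∀ a, v a = bs F (inr k) a → w a = 0 := by
  have key : ∀ a, v a = bs F (inr k) a ∨ a = inl k →
      (v - bs F (inr k) - v (inl k) • bs F (inl k)) a = 0 := fun a ha => by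
    by_cases h' : a = inl k
    · simp [h']
    · simp [ha.resolve_right h', h']
  have hw : v - bs F (inr k) - v (inl k) • bs F (inl k) ∈ WW F n (k + 1) := fun a ha => key a (by
    by_cases h' : idx a = k
    · rcases a with a | a <;> obtain rfl : a = k := h' <;> simp [h]
    · left
      rw [hv a (by have := Fin.val_ne_of_ne h'; omega), eq_comm]
      exact Pi.single_eq_of_ne (by rintro rfl; exact h' rfl) _)
  exact ⟨_, hw, v (inl k), by rw [TT_f hw]; abel, fun a ha => key a (Or.inl ha)⟩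

theorem exists_TT {k : Fin n} {A : Fin n ⊕ Fin n → Prop} (hA : ¬ A (inr k))
    (hA' : ∀ a : Fin n ⊕ Fin n, (idx a : ℕ) < k ∨ a = inl k → A a) {h : Sp} (hh : h ∈ Fix F A) :
    ∃ w ∈ WW F n (k + 1), ∃ c, (∀ a, A a.swap → w a = 0) ∧
      (TT (bs F (inl k)) w c)⁻¹ * h ∈ Fix F fun a => A a ∨ a = inr k := by
  obtain ⟨w, hw, c, e, h0⟩ := exists_TT_f (k := k) (v := h • bs F (inr k))
    (smul_mem_Wp (Fix_mono (fun a ha => hA' a (Or.inl ha)) hh) (bs_mem_Wp (by simp)))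
    (by rw [Fix_coord hh (hA' _ (Or.inr rfl))]; simp)
  have h1 : ∀ a, A a.swap → w a = 0 := fun a ha => h0 a (Fix_coord hh ha _)
  refine ⟨w, hw, c, h1, fun a ha => ?_⟩
  rw [mul_smul, inv_smul_eq_iff]
  rcases ha with ha | rfl
  · rw [hh a ha, TT_mem_Fix (A := A) (fun b hb => Pi.single_eq_of_ne (fun h => hA (by
      rwa [← swap_swap b, h] at hb)) _) (fun b hb => h1 _ (by simpa using hb)) c a ha]
  · exact e.symm

/-- The hypotheses of the inductive step. -/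
structure Step (π : Γ →* Matrix.symplecticGroup (Fin n) F) (k k' : Fin n)
    (Γ' M0 S0 S1 : Subgroup Γ) : Prop where
  hF : ∃ a : F, a ≠ 0 ∧ a ≠ 1
  hk : (k : ℕ) + 1 = k'
  mapΓ : Γ'.map π = GG F n (k + 1)
  mapM : M0.map π = MM F k k'
  mapS0 : S0.map π = SS F k
  mapS1 : S1.map π = SS F k'
  injΓ : Inj π Γ'
  inj0 : Inj π (M0 ⊔ S0)
  inj1 : Inj π (M0 ⊔ S1)
  le : S1 ≤ Γ'
  comm : ∀ g ∈ Γ', ∀ s ∈ S0, g * s = s * g
  stab : ∀ g ∈ Γ', π g • bs F (inl k') = bs F (inl k') → ∀ m ∈ M0, g * m = m * g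

/-- `y` is the lift of `TT e w c`. -/
def IsY (π : Γ →* Matrix.symplecticGroup (Fin n) F) (k k' : Fin n) (Γ' M0 : Subgroup Γ) (y : Γ)
    (w : Fin n ⊕ Fin n → F) (c : F) : Prop :=
  ∃ g ∈ Γ', ∃ m ∈ M0, ∃ u, (u = 0 ∨ u = bs F (inl k')) ∧ y = g * m * g⁻¹ ∧
    π m = TT (bs F (inl k)) u c ∧ w = π g • u

/-- The elements moving `e0` to a neighbour. -/
def E (π : Γ →* Matrix.symplecticGroup (Fin n) F) (k : Fin n) (A S0 : Subgroup Γ) : Set Γ :=
  {e | ∃ p ∈ A, ∃ s ∈ S0, ∃ p' ∈ A, B (bs F (inl k)) (π s • bs F (inl k)) ≠ 0 ∧ e = p * s * p'}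

/-- Tits' lemma for a subgroup. -/
theorem mem_of_smul_eq_sub {S X : Type*} [Group S] [MulAction S X] (π : Γ →* S) (Δ : Subgroup S)
    {R : X → X → Prop} {x₀ : X} {P : Subgroup Γ} {E : Set Γ} (hP : ∀ p ∈ P, π p ∈ Δ)
    (hE : ∀ e ∈ E, π e ∈ Δ) (fix : ∀ p ∈ P, π p • x₀ = x₀) (mul : ∀ p ∈ P, ∀ e ∈ E, p * e ∈ E)
    (inv : ∀ e ∈ E, e⁻¹ ∈ E) (rel : ∀ e ∈ E, R x₀ (π e • x₀))
    (ex : ∀ x, R x₀ x → ∃ e ∈ E, π e • x₀ = x)
    (uniq : ∀ e ∈ E, ∀ e' ∈ E, π e • x₀ = π e' • x₀ → e⁻¹ * e' ∈ P)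
    (smul : ∀ g ∈ Δ, ∀ {x x'}, R x x' → R (g • x) (g • x')) (rsymm : ∀ {x x'}, R x x' → R x' x)
    (irrefl : ∀ x, ¬ R x x) {D : X → Prop} (hD : ∀ g ∈ Δ, D (g • x₀))
    (tri : ∀ e ∈ E, ∀ e' ∈ E, R (π e • x₀) (π e' • x₀) → e⁻¹ * e' ∈ E)
    (quad : ∀ a b c d, R a b → R b c → R a d → R d c → ¬ R a c → a ≠ c →
      Relation.ReflTransGen (fun u v => R u v ∧ R a v ∧ R v c) b d)
    (geo : ∀ x z w, D x → R z w →
      ∃ f, (x = f ∨ R x f) ∧ (z = f ∨ R z f) ∧ (w = f ∨ R w f))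
    {g : Γ} (hg : g ∈ Subgroup.closure ((P : Set Γ) ∪ E)) (e : π g • x₀ = x₀) : g ∈ P := by
  let Δ' := Δ.comap π
  let _ : MulAction Δ' X := MulAction.compHom X (π.comp Δ'.subtype)
  have L : Loc R x₀ (P.subgroupOf Δ') (Subtype.val ⁻¹' E) :=
    ⟨fun p => fix p, fun p hp e => mul p hp e, fun e => inv e, fun e => rel e, fun x hx => by
      obtain ⟨e, he, h⟩ := ex x hx
      exact ⟨⟨e, hE e he⟩, he, h⟩, fun e he e' => uniq e he e', fun g => smul _ g.2, rsymm, irrefl⟩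
  have : Subgroup.closure ((P : Set Γ) ∪ E) ≤ (Subgroup.closure
      ((P.subgroupOf Δ' : Set Δ') ∪ Subtype.val ⁻¹' E)).map Δ'.subtype :=
    (Subgroup.closure_le _).2 fun x hx =>
      ⟨⟨x, hx.elim (hP x) (hE x)⟩, Subgroup.subset_closure hx, rfl⟩
  obtain ⟨g, hg', rfl⟩ := this hg
  exact L.mem_of_smul_eq' (fun g => hD _ g.2) (fun e he e' => tri e he e') quad geo hg' e

namespace Step

variable {π : Γ →* Matrix.symplecticGroup (Fin n) F} {k k' : Fin n} {Γ' M0 S0 S1 : Subgroup Γ}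
  (St : Step π k k' Γ' M0 S0 S1)
include St

local notation "e0" => bs F (inl k)
local notation "f0" => bs F (inr k)
local notation "e1" => bs F (inl k')
local notation "f1" => bs F (inr k')
local notation "Y" => IsY π k k' Γ' M0
local notation "W'" => WW F n (k + 1)

theorem memΓ {g : Γ} (h : g ∈ Γ') : π g ∈ GG F n (k + 1) := St.mapΓ ▸ ⟨g, h, rfl⟩

theorem memM {g : Γ} (h : g ∈ M0) : π g ∈ MM F k k' := St.mapM ▸ ⟨g, h, rfl⟩

theorem memS0 {g : Γ} (h : g ∈ S0) : π g ∈ SS F k := St.mapS0 ▸ ⟨g, h, rfl⟩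

theorem ne : k ≠ k' := fun h => by have := St.hk; omega

theorem PP_le : PP F k' ≤ W' := fun _ h a ha => h a (by have := St.hk; omega)

theorem e1_mem : e1 ∈ W' := St.PP_le (bs_mem_Wp (by simp))

omit St in
theorem u_mem {u : V} (h : u = 0 ∨ u = e1) : u ∈ PP F k' := by
  rcases h with rfl | rfl
  exacts [zero_mem _, bs_mem_Wp (by simp)]

theorem mem_W {y : Γ} {w : V} {c : F} (h : Y y w c) : w ∈ W' := by
  obtain ⟨g, hg, m, -, u, hu, -, -, rfl⟩ := h
  exact smul_mem_Wp (St.memΓ hg) (St.PP_le (u_mem hu))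

theorem map_eq {y : Γ} {w : V} {c : F} (h : Y y w c) : π y = TT e0 w c := by
  obtain ⟨g, hg, m, -, u, -, rfl, e, rfl⟩ := h
  rw [map_mul, map_mul, map_inv, e, conj_TT (St.memΓ hg _ (by simp))]

theorem exists_m {u : V} (h : ∀ a, a ≠ inl k' → u a = 0) (c : F) :
    ∃ m ∈ M0, π m = TT e0 u c := by
  have : TT e0 u c ∈ MM F k k' := TT_mem_Fix (fun a ha => Pi.single_eq_of_ne (by
    rintro h; exact ha.1 (by simpa using congrArg Sum.swap h)) _)
    (fun a ha => h _ fun h => ha.2 (by simpa using congrArg Sum.swap h)) c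
  rwa [← St.mapM] at this

theorem uniq {y y' : Γ} {w : V} {c : F} (h : Y y w c) (h' : Y y' w c) : y = y' := by
  obtain ⟨g, hg, m, hm, u, hu, rfl, e, rfl⟩ := h
  obtain ⟨g', hg', m', hm', u', hu', rfl, e', h⟩ := h'
  have z : ∀ {g g' : Sp} {u}, u = e1 → g • u ≠ g' • (0 : V) := by
    rintro g g' u rfl h
    exact smul_bs_ne_zero _ _ (h.trans (smul_zero _))
  obtain rfl : u = u' := by
    rcases hu with rfl | hu <;> rcases hu' with rfl | hu'
    exacts [rfl, (z hu' h.symm).elim, (z hu h).elim, hu.trans hu'.symm]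
  obtain rfl : m = m' := St.inj0.eq (Subgroup.mem_sup_left hm) (Subgroup.mem_sup_left hm')
    (e.trans e'.symm)
  have : g⁻¹ * g' * m = m * (g⁻¹ * g') := by
    rcases hu with rfl | rfl
    · have : tv e0 c ∈ SS F k := tv_mem_Fix (fun a ha => Pi.single_eq_of_ne (by
        rintro h; exact ha (by simpa using congrArg idx h)) _) c
      rw [← St.mapS0] at this
      obtain ⟨s, hs, es⟩ := this
      rw [St.inj0.eq (Subgroup.mem_sup_left hm) (Subgroup.mem_sup_right hs)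
        (by rw [e, es, TT_zero])]
      exact St.comm _ (mul_mem (inv_mem hg) hg') s hs
    · exact St.stab _ (mul_mem (inv_mem hg) hg')
        (by rw [map_mul, map_inv, mul_smul, ← h, inv_smul_smul]) m hm
  calc g * m * g⁻¹ = g * (m * (g⁻¹ * g')) * g'⁻¹ := by group
    _ = _ := by rw [← this]; group

omit St in
theorem conj {y g : Γ} {w : V} {c : F} (h : Y y w c) (hg : g ∈ Γ') :
    Y (g * y * g⁻¹) (π g • w) c := by
  obtain ⟨g', hg', m, hm, u, hu, rfl, e, rfl⟩ := h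
  exact ⟨g * g', mul_mem hg hg', m, hm, u, hu, by group, e, by rw [map_mul, mul_smul]⟩

omit St in
theorem one : Y 1 0 0 :=
  ⟨1, one_mem _, 1, one_mem _, 0, Or.inl rfl, by simp, by rw [TT_zero, tv_zero, map_one], by simp⟩

theorem ex_aux {p : Fin n → Prop} (hp : ¬ p k') {A : Subgroup Γ}
    (hA : A.map π = Fix F fun a => p (idx a)) {w : V} (hw : w ∈ Wp F p) (c : F) :
    ∃ g ∈ A, ∃ m ∈ M0, ∃ u, (u = 0 ∨ u = bs F (inl k')) ∧ π m = TT e0 u c ∧ w = π g • u := by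
  by_cases h : w = 0
  · obtain ⟨m, hm, e⟩ := St.exists_m (u := 0) (fun _ _ => rfl) c
    exact ⟨1, one_mem _, m, hm, 0, Or.inl rfl, e, by simpa using h⟩
  obtain ⟨m, hm, e⟩ := St.exists_m (u := e1) (fun _ h => Pi.single_eq_of_ne h _) c
  obtain ⟨g, hg, eg⟩ := exists_Fix (bs_mem_Wp (a := inl k') hp) hw (bs_ne_zero _) h
  rw [← hA] at hg
  obtain ⟨g, hg, rfl⟩ := hg
  exact ⟨g, hg, m, hm, _, Or.inr rfl, e, eg.symm⟩

theorem ex {w : V} (hw : w ∈ W') (c : F) : ∃ y, Y y w c := by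
  obtain ⟨g, hg, m, hm, u, hu, e, e'⟩ := St.ex_aux (by have := St.hk; omega) St.mapΓ hw c
  exact ⟨_, g, hg, m, hm, u, hu, rfl, e, e'⟩

theorem ex1 {w : V} (hw : w ∈ PP F k') (c : F) : ∃ y ∈ M0 ⊔ S1, Y y w c := by
  obtain ⟨g, hg, m, hm, u, hu, e, e'⟩ := St.ex_aux (p := fun i => i ≠ k') (by simp) St.mapS1 hw c
  have := Subgroup.mem_sup_right (S := M0) hg
  exact ⟨_, mul_mem (mul_mem this (Subgroup.mem_sup_left hm)) (inv_mem this),
    g, St.le hg, m, hm, u, hu, rfl, e, e'⟩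

theorem isY_iff {w : V} (hw : w ∈ PP F k') {c : F} {y : Γ} :
    Y y w c ↔ y ∈ M0 ⊔ S1 ∧ π y = TT e0 w c := by
  obtain ⟨y', h1, h2⟩ := St.ex1 hw c
  exact ⟨fun h => ⟨St.uniq h2 h ▸ h1, St.map_eq h⟩,
    fun h => St.inj1.eq h1 h.1 ((St.map_eq h2).trans h.2.symm) ▸ h2⟩

theorem mul_aux {y y' g : Γ} {w w' : V} {c c' : F} (h : Y y w c) (h' : Y y' w' c') (hg : g ∈ Γ')
    (hw : π g • w ∈ PP F k') (hw' : π g • w' ∈ PP F k') :
    Y (y * y') (w + w') (c + c' + B w' w) := by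
  have h1 := (St.isY_iff hw).1 (conj h hg)
  have h2 := (St.isY_iff hw').1 (conj h' hg)
  have := conj ((St.isY_iff (add_mem hw hw')).2 ⟨mul_mem h1.1 h2.1, by
    rw [map_mul, h1.2, h2.2, TT_mul (form_e_WW (St.PP_le hw)) (form_e_WW (St.PP_le hw'))]⟩)
    (inv_mem hg)
  simpa [mul_assoc, form_smul_smul] using this

theorem exists_PP {w : V} (hw : w ∈ W') : ∃ g ∈ Γ', π g • w ∈ PP F k' := by
  by_cases h : w = 0
  · exact ⟨1, one_mem _, by simp [h]⟩
  obtain ⟨g, hg, eg⟩ := exists_Fix hw St.e1_mem h (bs_ne_zero _)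
  obtain ⟨g, hg', rfl⟩ := St.mapΓ.ge hg
  exact ⟨g, hg', eg ▸ u_mem (Or.inr rfl)⟩

theorem mul_ne {y y' : Γ} {w w' : V} {c c' : F} (h : Y y w c) (h' : Y y' w' c') (hB : B w w' ≠ 0) :
    Y (y * y') (w + w') (c + c' + B w' w) := by
  have f1m : f1 ∈ PP F k' := bs_mem_Wp (by simp)
  obtain ⟨g, hg, e, e'⟩ := (nondeg_Wp _).exists_TW_pair (St.mem_W h)
    (Submodule.smul_mem _ (B w w')⁻¹ (St.mem_W h')) (St.PP_le f1m) St.e1_mem
    (by rw [form_smul_right, inv_mul_cancel₀ hB]) (form_single_inr_inl k')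
  obtain ⟨g, hg', rfl⟩ := St.mapΓ.ge (TW_le_Fix _ hg)
  refine St.mul_aux h h' hg' (e ▸ f1m) ?_
  rw [smul_smul_comm, inv_smul_eq_iff₀ hB] at e'
  exact e' ▸ Submodule.smul_mem _ _ (u_mem (Or.inr rfl))

theorem mul_neg {y y' : Γ} {w : V} {c c' : F} (h : Y y w c) (h' : Y y' (-w) c') :
    Y (y * y') 0 (c + c') := by
  obtain ⟨g, hg, e⟩ := St.exists_PP (St.mem_W h)
  simpa [form_neg_left, form_self] using St.mul_aux h h' hg e (by simpa using e)

theorem mul {y y' : Γ} {w w' : V} {c c' : F} (h : Y y w c) (h' : Y y' w' c') :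
    Y (y * y') (w + w') (c + c' + B w' w) := by
  by_cases h1 : w = 0
  · obtain ⟨g, hg, e⟩ := St.exists_PP (St.mem_W h')
    exact St.mul_aux h h' hg (by simp [h1]) e
  by_cases h2 : w' = 0
  · obtain ⟨g, hg, e⟩ := St.exists_PP (St.mem_W h)
    exact St.mul_aux h h' hg e (by simp [h2])
  by_cases h3 : w + w' = 0
  · obtain rfl : w' = -w := eq_neg_of_add_eq_zero_right h3
    simpa [form_neg_left, form_self] using St.mul_neg h h'
  by_cases h4 : B w w' = 0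
  swap
  · exact St.mul_ne h h' h4
  obtain ⟨u, hu, u1, u2, u3⟩ := exists_three St.hF (nondeg_Wp _) (St.mem_W h) (St.mem_W h') h1 h2 h3
  obtain ⟨a, ha⟩ := St.ex hu 0
  obtain ⟨b, hb⟩ := St.ex (neg_mem hu) 0
  have ab : a * b = 1 := St.uniq (by simpa using St.mul_neg ha hb) one
  have := St.mul_ne (St.mul_ne h ha u1) (St.mul_ne hb h' (by
    rwa [form_neg_left, ← form_skew])) (by
      rw [form_add_left] at u3
      simp only [form_add_left, form_add_right, form_neg_right, form_self, h4, form_skew u w']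
      exact fun h => u3 (by linear_combination -h))
  convert this using 1
  · rw [mul_assoc, ← mul_assoc a, ab, one_mul]
  · abel
  · simp only [form_add_left, form_add_right, form_neg_right, form_neg_left, form_self]
    ring

/-- The lift of the unipotent radical. -/
def Q : Subgroup Γ where
  carrier := {y | ∃ w c, Y y w c}
  one_mem' := ⟨_, _, one⟩
  mul_mem' := fun ⟨_, _, h⟩ ⟨_, _, h'⟩ => ⟨_, _, St.mul h h'⟩
  inv_mem' := fun {y} ⟨w, c, h⟩ => by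
    obtain ⟨b, hb⟩ := St.ex (neg_mem (St.mem_W h)) (-c)
    rw [inv_eq_of_mul_eq_one_right (St.uniq (by simpa using St.mul_neg h hb) one)]
    exact ⟨_, _, hb⟩

theorem decomp {p : Γ} (hp : p ∈ Γ' ⊔ M0) : ∃ q w c, Y q w c ∧ ∃ g ∈ Γ', p = q * g := by
  have : Γ' ⊔ M0 ≤ St.Q ⊔ Γ' := sup_le le_sup_right fun m hm => by
    have hk := St.hk
    obtain ⟨w, hw, c, h1, h2⟩ := exists_TT (k := k) (by simp) (by
      rintro a (ha | rfl)
      · constructor <;> rintro rfl <;> simp at ha; omega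
      · simp) (St.memM hm)
    obtain ⟨s, hs, es⟩ := St.mapS1.ge (Fix_mono (by
      intro a ha
      by_cases h : a = inr k
      · exact Or.inr h
      · exact Or.inl ⟨h, by rintro rfl; exact ha rfl⟩) h2)
    rw [← inv_mul_cancel_right m s]
    refine mul_mem (Subgroup.mem_sup_left ⟨w, c, (St.isY_iff ?_).2 ⟨mul_mem
      (Subgroup.mem_sup_left hm) (Subgroup.mem_sup_right (inv_mem hs)), by simp [es]⟩⟩)
      (Subgroup.mem_sup_right (St.le hs))
    intro a ha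
    by_cases h : a = inl k
    · exact hw a (by simp [h])
    · rcases a with a | a <;> apply h1 <;> simp_all
  have h : p ∈ ((St.Q ⊔ Γ' : Subgroup Γ) : Set Γ) := this hp
  rw [Subgroup.coe_mul_of_right_le_normalizer_left St.Q Γ' (Subgroup.le_normalizer_iff.2
    fun g hg y ⟨_, _, hy⟩ => ⟨_, _, conj hy hg⟩)] at h
  obtain ⟨q, ⟨w, c, hq⟩, g, hg, rfl⟩ := h
  exact ⟨q, w, c, hq, g, hg, rfl⟩

local notation "P" => Γ' ⊔ M0

theorem mapP : (P).map π = Fix F fun a => (idx a : ℕ) < k ∨ a = inl k := by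
  have hk := St.hk
  have h1 : ∀ a : Fin n ⊕ Fin n, (idx a : ℕ) < k ∨ a = inl k → (idx a : ℕ) < k + 1 := by
    rintro a (ha | rfl)
    exacts [by omega, by simp]
  refine le_antisymm ?_ fun h hh => ?_
  · rw [Subgroup.map_sup, St.mapΓ, St.mapM]
    refine sup_le (Fix_mono h1) (Fix_mono ?_)
    rintro a (ha | rfl)
    · constructor <;> rintro rfl <;> simp at ha; omega
    · simp
  · obtain ⟨w, hw, c, -, h2⟩ := exists_TT (k := k) (by simp) (fun _ h => h) hh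
    obtain ⟨g, hg, eg⟩ := St.mapΓ.ge (Fix_mono (by
      intro a ha
      by_cases h : idx a = k
      · rcases a with a | a <;> obtain rfl : a = k := h <;> simp
      · have := Fin.val_ne_of_ne h
        exact Or.inl (Or.inl (by omega))) h2)
    obtain ⟨y, hy⟩ := St.ex hw c
    have e := St.map_eq hy
    obtain ⟨g', hg', m, hm, -, -, rfl, -⟩ := hy
    have := Subgroup.mem_sup_left (T := M0) hg'
    exact ⟨_, mul_mem (mul_mem (mul_mem this (Subgroup.mem_sup_right hm)) (inv_mem this))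
      (Subgroup.mem_sup_left hg), by rw [map_mul, e, eg, mul_inv_cancel_left]⟩

theorem injP : Inj π (P) := by
  intro p hp e
  obtain ⟨q, w, c, hq, g, hg, rfl⟩ := St.decomp hp
  have h : TT e0 w c • f0 = TT e0 0 0 • f0 := by
    rw [← St.map_eq hq, ← St.memΓ hg (inr k) (by simp), ← mul_smul, ← map_mul, e, TT_zero, tv_zero,
      one_smul, one_smul, St.memΓ hg (inr k) (by simp)]
  obtain ⟨rfl, rfl⟩ := TT_inj (St.mem_W hq) (zero_mem _) h
  obtain rfl := St.uniq hq one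
  rw [one_mul] at e ⊢
  exact St.injΓ g hg e

theorem fixP {p : Γ} (hp : p ∈ P) : π p • e0 = e0 := St.mapP.le ⟨p, hp, rfl⟩ _ (Or.inr rfl)

theorem exists_s {x : V} (hx : x ∈ WW F n k) (h : B e0 x ≠ 0) : ∃ s ∈ S0, B e0 (π s • e0) ≠ 0 ∧
    ∃ w ∈ W', ∃ c, TT e0 w c • π s • e0 = x ∧ ∀ a, a ≠ inr k → x a = 0 → w a = 0 := by
  rw [form_single_inl_left, neg_ne_zero] at h
  obtain ⟨w, hw, c, e, h0⟩ := exists_TT_f (Submodule.smul_mem _ (x (inr k))⁻¹ hx) (by simp [h])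
  obtain ⟨s, hs, es⟩ := exists_Fix (p := fun i => i ≠ k) (bs_mem_Wp (a := inl k) (by simp))
    (Submodule.smul_mem _ (x (inr k)) (bs_mem_Wp (a := inr k) (by simp))) (bs_ne_zero _)
    (smul_ne_zero h (bs_ne_zero _))
  obtain ⟨s, hs', rfl⟩ := St.mapS0.ge hs
  refine ⟨s, hs', by simpa [es, form_single_inl_left] using h, w, hw, c, ?_,
    fun a ha ha' => h0 a (by simp [ha, ha'])⟩
  rw [es, smul_smul_comm, e, smul_inv_smul₀ h]

theorem memK {κ : Γ} (hκ : κ ∈ M0 ⊔ S0) :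
    π κ ∈ Fix F fun a => a ≠ inl k ∧ a ≠ inr k ∧ a ≠ inr k' := by
  have : (M0 ⊔ S0).map π ≤ Fix F fun a => a ≠ inl k ∧ a ≠ inr k ∧ a ≠ inr k' := by
    rw [Subgroup.map_sup, St.mapS0, St.mapM]
    exact sup_le (Fix_mono fun a ha => ha.2) (Fix_mono fun a ha => by
      rcases a with a | a <;> simp_all)
  exact this ⟨κ, hκ, rfl⟩

theorem K_fix {κ : Γ} (hκ : κ ∈ M0 ⊔ S0) (h : π κ • e0 = e0) : κ ∈ P := by
  obtain ⟨m, hm, e⟩ := St.mapM.ge (show π κ ∈ MM F k k' from fun a ha => by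
    by_cases h' : a = inl k
    · exact h' ▸ h
    · exact St.memK hκ a ⟨h', ha⟩)
  exact St.inj0.eq (Subgroup.mem_sup_left hm) hκ e ▸ Subgroup.mem_sup_right hm

theorem K_E {κ : Γ} (hκ : κ ∈ M0 ⊔ S0) (h : B e0 (π κ • e0) ≠ 0) : κ ∈ E π k (P) S0 := by
  have hk := St.hk
  have z : ∀ a, a ≠ inl k → a ≠ inr k → a ≠ inl k' → (π κ • e0) a = 0 := fun a a1 a2 a3 => by
    rw [Fix_coord (St.memK hκ) (by rcases a with a | a <;> simp_all)]
    exact Pi.single_eq_of_ne a1 _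
  obtain ⟨s, hs, hs', w, hw, c, e, h0⟩ := St.exists_s (x := π κ • e0) (fun a ha => z a
    (by rintro rfl; simp at ha) (by rintro rfl; simp at ha) (by rintro rfl; simp at ha; omega)) h
  obtain ⟨m, hm, em⟩ := St.exists_m (u := w) (fun a ha => by
    by_cases h' : idx a = k
    · exact hw a (by simp [h'])
    · exact h0 a (by rintro rfl; exact h' rfl) (z a (by rintro rfl; exact h' rfl)
        (by rintro rfl; exact h' rfl) ha)) c
  refine ⟨m, Subgroup.mem_sup_right hm, s, hs, (m * s)⁻¹ * κ, St.K_fix (mul_mem (inv_mem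
    (mul_mem (Subgroup.mem_sup_left hm) (Subgroup.mem_sup_right hs))) hκ) ?_, hs', by group⟩
  rw [map_mul, map_inv, mul_smul, inv_smul_eq_iff, map_mul, mul_smul, em, e]

theorem E_K {e e' : Γ} (he : e ∈ E π k (P) S0) (he' : e' ∈ E π k (P) S0) :
    ∃ p ∈ P, ∃ κ ∈ M0 ⊔ S0, ∃ p' ∈ P, e⁻¹ * e' = p * κ * p' := by
  obtain ⟨p1, h1, s, hs, p2, h2, -, rfl⟩ := he
  obtain ⟨p3, h3, s', hs', p4, h4, -, rfl⟩ := he'
  obtain ⟨q, w, c, ⟨g, hg, m, hm, -, -, rfl, -⟩, g', hg', e⟩ := St.decomp (mul_mem (inv_mem h1) h3)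
  have hg2 := mul_mem (inv_mem hg) hg'
  refine ⟨p2⁻¹ * g, mul_mem (inv_mem h2) (Subgroup.mem_sup_left hg), s⁻¹ * m * s',
    mul_mem (mul_mem (Subgroup.mem_sup_right (inv_mem hs)) (Subgroup.mem_sup_left hm))
      (Subgroup.mem_sup_right hs'), g⁻¹ * g' * p4, mul_mem (Subgroup.mem_sup_left hg2) h4, ?_⟩
  calc _ = p2⁻¹ * s⁻¹ * (p1⁻¹ * p3) * s' * p4 := by group
    _ = p2⁻¹ * (s⁻¹ * g) * m * (g⁻¹ * g' * s') * p4 := by rw [e]; group
    _ = _ := by rw [← St.comm g hg _ (inv_mem hs), St.comm _ hg2 _ hs']; group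

theorem memP {p : Γ} (hp : p ∈ P) : π p ∈ GG F n k :=
  Fix_mono (fun _ => Or.inl) (St.mapP.le ⟨p, hp, rfl⟩)

omit St in
theorem SS_le : SS F k ≤ GG F n k := Fix_mono fun a ha h => by simp [h] at ha

theorem memE {e : Γ} (he : e ∈ E π k (P) S0) : π e ∈ GG F n k := by
  obtain ⟨p, hp, s, hs, p', hp', -, rfl⟩ := he
  rw [map_mul, map_mul]
  exact mul_mem (mul_mem (St.memP hp) (SS_le (St.memS0 hs))) (St.memP hp')

theorem form_P {p p' : Γ} (hp : p ∈ P) (hp' : p' ∈ P) (g : Γ) :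
    B e0 (π (p * g * p') • e0) = B e0 (π g • e0) := by
  rw [map_mul, map_mul, mul_smul, mul_smul, St.fixP hp', ← form_smul_smul (π p) e0 (π g • e0),
    St.fixP hp]

theorem exE {x : V} (hx : x ∈ WW F n k) (h : B e0 x ≠ 0) : ∃ e ∈ E π k (P) S0, π e • e0 = x := by
  obtain ⟨s, hs, hs', w, hw, c, e, -⟩ := St.exists_s hx h
  obtain ⟨p, hp, ep⟩ := St.mapP.ge (show TT e0 w c ∈ _ from TT_mem_Fix (by
    rintro a (ha | rfl)
    · exact Pi.single_eq_of_ne (fun h => by simp [← idx_swap a, h] at ha) _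
    · simp) (by
    rintro a (ha | rfl)
    · exact hw _ (by simp; omega)
    · exact hw _ (by simp)) c)
  exact ⟨_, ⟨p, hp, s, hs, 1, one_mem _, hs', rfl⟩, by rw [mul_one, map_mul, mul_smul, ep, e]⟩

theorem stab_le {g : Γ} (hg : g ∈ P ⊔ S0) (e : π g • e0 = e0) : g ∈ P := by
  have he0 : e0 ∈ WW F n k := bs_mem_Wp (by simp)
  have mul : ∀ p ∈ P, ∀ e ∈ E π k (P) S0, ∀ p' ∈ P, p * e * p' ∈ E π k (P) S0 := by
    rintro p hp _ ⟨p1, h1, s, hs, p2, h2, h, rfl⟩ p' hp'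
    exact ⟨_, mul_mem hp h1, s, hs, _, mul_mem h2 hp', h, by group⟩
  have inv : ∀ g : Γ, B e0 (π g • e0) ≠ 0 → B e0 (π g⁻¹ • e0) ≠ 0 := fun g h => by
    rwa [map_inv, ← form_smul_smul (π g), smul_inv_smul, form_skew, neg_ne_zero]
  refine mem_of_smul_eq_sub π (GG F n k) (E := E π k (P) S0)
    (R := fun v w => v ∈ WW F n k ∧ w ∈ WW F n k ∧ B v w ≠ 0)
    (D := fun v => v ∈ WW F n k ∧ v ≠ 0) (fun _ => St.memP) (fun _ => St.memE)
    (fun _ => St.fixP) (fun p hp e he => by simpa using mul p hp e he 1 (one_mem _)) ?_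
    (fun e he => ⟨he0, smul_mem_Wp (St.memE he) he0, ?_⟩) (fun x hx => St.exE hx.2.1 hx.2.2)
    (fun e he e' he' h => ?_) (fun g hg x x' h => ⟨smul_mem_Wp hg h.1, smul_mem_Wp hg h.2.1, by
      rw [form_smul_smul]; exact h.2.2⟩)
    (fun h => ⟨h.2.1, h.1, by rw [form_skew, neg_ne_zero]; exact h.2.2⟩)
    (fun x h => h.2.2 (form_self x)) (fun g hg => ⟨smul_mem_Wp hg he0, smul_bs_ne_zero _ _⟩)
    (fun e he e' he' h => ?_) (fun a b c d ab bc ad dc ac _ => ?_) (fun x z w hx h => ?_)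
    ((sup_le ?_ fun s hs => ?_ : P ⊔ S0 ≤ _) hg) e
  · rintro _ ⟨p, hp, s, hs, p', hp', h, rfl⟩
    exact ⟨_, inv_mem hp', _, inv_mem hs, _, inv_mem hp, inv s h, by group⟩
  · obtain ⟨p, hp, s, hs, p', hp', h, rfl⟩ := he
    rwa [St.form_P hp hp']
  · obtain ⟨p, hp, κ, hκ, p', hp', e⟩ := St.E_K he he'
    have := congrArg (fun g => π g • e0) e
    simp only [map_mul, map_inv, mul_smul, ← h, inv_smul_smul, St.fixP hp'] at this
    rw [e]
    exact mul_mem (mul_mem hp (St.K_fix hκ (smul_left_cancel _ (this.symm.trans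
      (St.fixP hp).symm)))) hp'
  · obtain ⟨p, hp, κ, hκ, p', hp', e⟩ := St.E_K he he'
    refine e ▸ mul p hp κ (St.K_E hκ ?_) p' hp'
    rw [← St.form_P hp hp', ← e, map_mul, map_inv, ← form_smul_smul (π _), mul_smul, smul_inv_smul]
    exact h.2.2
  · have ac : B a c = 0 := by_contra fun h => ac ⟨ab.1, bc.2.1, h⟩
    by_cases h : B b d = 0
    swap
    · exact .single ⟨⟨bc.1, dc.1, h⟩, ad, dc⟩
    have hy := add_mem ab.1 bc.1
    refine .tail (.single ⟨⟨bc.1, hy, ?_⟩, ⟨ab.1, hy, ?_⟩, hy, bc.2.1, ?_⟩)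
      ⟨⟨hy, dc.1, ?_⟩, ad, dc⟩
    · simpa [form_add_right, form_self, form_skew b a] using ab.2.2
    · simpa [form_add_right, form_self] using ab.2.2
    · simpa [form_add_left, ac] using bc.2.2
    · simpa [form_add_left, h] using ad.2.2
  · obtain ⟨f, hf, h1, h2, h3⟩ := geo (nondeg_Wp _) hx.1 h.1 h.2.1 hx.2 h.2.2
    exact ⟨f, h1.imp_right fun h' => ⟨hx.1, hf, h'⟩, h2.imp_right fun h' => ⟨h.1, hf, h'⟩,
      h3.imp_right fun h' => ⟨h.2.1, hf, h'⟩⟩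
  · exact fun p hp => Subgroup.subset_closure (Or.inl hp)
  · have h0 : e0 ∈ PP F k := bs_mem_Wp (by simp)
    obtain ⟨y, hy, y1, y2⟩ := (nondeg_Wp _).exists_common h0 (smul_mem_Wp (St.memS0 hs) h0)
      (bs_ne_zero _) (smul_bs_ne_zero _ _)
    obtain ⟨t, ht, et⟩ := exists_Fix h0 hy (bs_ne_zero _) (by
      rintro rfl; exact y1 (form_zero_right _))
    obtain ⟨t, ht', rfl⟩ := St.mapS0.ge ht
    have m : ∀ u ∈ S0, B e0 (π u • e0) ≠ 0 → u ∈ Subgroup.closure ((P : Subgroup Γ) ∪ E π k (P) S0) :=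
      fun u hu h => Subgroup.subset_closure (Or.inr ⟨1, one_mem _, u, hu, 1, one_mem _, h, by simp⟩)
    simpa using mul_mem (m t ht' (et ▸ y1)) (inv_mem (m _ (mul_mem (inv_mem hs) ht') (by
      rwa [map_mul, map_inv, ← form_smul_smul (π s), mul_smul, smul_inv_smul, et])))

theorem inj : Inj π (P ⊔ S0) := fun g hg e => St.injP g (St.stab_le hg (by simp [e])) e

theorem map : (P ⊔ S0).map π = GG F n k := by
  refine le_antisymm ?_ fun h hh => ?_
  · rw [Subgroup.map_sup, St.mapP, St.mapS0]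
    exact sup_le (Fix_mono fun _ => Or.inl) SS_le
  have he0 : e0 ∈ WW F n k := bs_mem_Wp (by simp)
  obtain ⟨y, hy, y1, y2⟩ := (nondeg_Wp _).exists_common he0 (smul_mem_Wp hh he0) (bs_ne_zero _)
    (smul_bs_ne_zero _ _)
  obtain ⟨e, he, ee⟩ := St.exE hy y1
  obtain ⟨e', he', ee'⟩ := St.exE (smul_mem_Wp (inv_mem hh) hy) (by
    rwa [← form_smul_smul h, smul_inv_smul])
  obtain ⟨p, hp, ep⟩ := St.mapP.ge (show (π e)⁻¹ * h * π e' ∈ _ from by
    rintro a (ha | rfl)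
    · exact mul_mem (mul_mem (inv_mem (St.memE he)) hh) (St.memE he') a ha
    · rw [mul_smul, mul_smul, ee', smul_inv_smul, ← ee, inv_smul_smul])
  have m : ∀ e ∈ E π k (P) S0, e ∈ P ⊔ S0 := by
    rintro _ ⟨p, hp, s, hs, p', hp', -, rfl⟩
    exact mul_mem (mul_mem (Subgroup.mem_sup_left hp) (Subgroup.mem_sup_right hs))
      (Subgroup.mem_sup_left hp')
  exact ⟨e * p * e'⁻¹, mul_mem (mul_mem (m e he) (Subgroup.mem_sup_left hp)) (inv_mem (m e' he')),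
    by simp [ep, mul_assoc]⟩

end Step

end Cfsg.Agent.CT.Sp
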