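import Mathlib
import Cfsg.Agent.CT.SpStep

/-!
The amalgam presentation of the symplectic group.
-/

set_option autoImplicit false

namespace Cfsg.Agent.CT.Sp

open Matrix Cfsg Cfsg.Agent.Class.Sp Sum

variable {F : Type*} [Field F] {n : ℕ} {Γ : Type*} [Group Γ]

theorem exists_lift (hF : ∃ a : F, a ≠ 0 ∧ a ≠ 1) (π : Γ →* Matrix.symplecticGroup (Fin n) F)
    (S M : Fin n → Subgroup Γ) (mapS : ∀ j, (S j).map π = SS F j)
    (mapM : ∀ i j : Fin n, (i : ℕ) + 1 = j → (M i).map π = MM F i j) (iS : ∀ j, Inj π (S j))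
    (iSS : ∀ j l, j ≠ l → Inj π (S j ⊔ S l))
    (iMM : ∀ i i' : Fin n, (i : ℕ) + 1 < n → (i' : ℕ) + 1 < n → Inj π (M i ⊔ M i'))
    (iMS : ∀ i j : Fin n, (i : ℕ) + 1 < n → Inj π (M i ⊔ S j)) (d : ℕ) (k : Fin n)
    (hk : (k : ℕ) + d + 1 = n) : ∃ A : Subgroup Γ, Inj π A ∧ A.map π = GG F n k ∧
      (∀ K, A ≤ K ↔ (∀ j, k ≤ j → S j ≤ K) ∧ ∀ i, k ≤ i → (i : ℕ) + 1 < n → M i ≤ K) ∧
      ∀ i : Fin n, (i : ℕ) + 1 = k → ∀ g ∈ A, π g • bs F (inl k) = bs F (inl k) →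
        ∀ m ∈ M i, g * m = m * g := by
  have mS : ∀ {j g}, g ∈ S j → π g ∈ SS F j := fun h => (mapS _).le ⟨_, h, rfl⟩
  have mM : ∀ {i j : Fin n} {g}, (i : ℕ) + 1 = j → g ∈ M i → π g ∈ MM F i j :=
    fun e h => (mapM _ _ e).le ⟨_, h, rfl⟩
  have cMS : ∀ i j : Fin n, (i : ℕ) + 1 < n → i ≠ j → (i : ℕ) + 1 ≠ j →
      ∀ m ∈ M i, ∀ s ∈ S j, m * s = s * m := fun i j h h1 h2 m hm s hs =>
    (iMS i j h).commute hm hs (Fix_comm (fun a ha => by
      by_contra h'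
      refine ha ⟨?_, ?_⟩ <;> rintro rfl <;> simp at h'
      exacts [h1 h', h2 (by simp [← h'])]) (mM (j := ⟨i + 1, h⟩) rfl hm) (mS hs))
  have cMM : ∀ i j : Fin n, (i : ℕ) + 1 < n → (j : ℕ) + 1 < n →
      ∀ m ∈ M i, ∀ s ∈ M j, m * s = s * m := fun i j h h' m hm s hs =>
    (iMM i j h h').commute hm hs (Fix_comm (fun a ha => by
      rcases a with a | a <;> simp at ha ⊢) (mM (j := ⟨i + 1, h⟩) rfl hm)
      (mM (j := ⟨j + 1, h'⟩) rfl hs))
  induction d generalizing k with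
  | zero =>
    refine ⟨S k, iS k, (mapS k).trans (congrArg _ (funext fun a => propext ?_)), fun K =>
      ⟨fun h => ⟨fun j hj => ?_, fun i h1 h2 => ?_⟩, fun h => h.1 k le_rfl⟩,
      fun i hi g hg e m hm => ?_⟩
    · have := (idx a).2
      rw [Ne, Fin.ext_iff]; omega
    · rwa [show j = k from Fin.ext (by have := j.2; omega)]
    · omega
    · refine ((iMS i k (by omega)).commute hm hg (Fix_comm (A' := fun a => idx a ≠ k ∨ a = inl k)
        (fun a ha => ?_) (mM hi hm) fun a ha => ha.elim (mS hg a) fun h => h ▸ e)).symm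
      by_contra h'
      refine ha ⟨?_, ?_⟩ <;> rintro rfl <;> simp at h'
  | succ d ih =>
    obtain ⟨A, h1, h2, h3, h4⟩ := ih ⟨k + 1, by omega⟩ (by simp; omega)
    have cent : ∀ B : Subgroup Γ, (∀ j : Fin n, k < j → ∀ m ∈ B, ∀ s ∈ S j, m * s = s * m) →
        (∀ j : Fin n, k < j → (j : ℕ) + 1 < n → ∀ m ∈ B, ∀ s ∈ M j, m * s = s * m) →
        A ≤ Subgroup.centralizer B := fun B p q =>
      (h3 _).2 ⟨fun j hj s hs m hm => p j hj m hm s hs,
        fun j hj hj' s hs m hm => q j hj hj' m hm s hs⟩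
    have St : Step π k ⟨k + 1, by omega⟩ A (M k) (S k) (S ⟨k + 1, by omega⟩) :=
      ⟨hF, rfl, h2, mapM _ _ rfl, mapS _, mapS _, h1, iMS _ _ (by omega), iMS _ _ (by omega),
        ((h3 A).1 le_rfl).1 _ le_rfl, fun g hg s hs => (cent (S k) (fun j hj m hm s hs =>
          (iSS k j hj.ne).commute hm hs (Fix_comm (fun a ha => by
            simpa [not_not.1 ha] using hj.ne) (mS hm) (mS hs))) (fun j hj hj' m hm s hs =>
          (cMS j k hj' hj.ne' (by omega) s hs m hm).symm) hg s hs).symm, h4 k rfl⟩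
    refine ⟨_, St.inj, St.map, fun K => ?_, fun i hi g hg e m hm => ?_⟩
    · rw [sup_le_iff, sup_le_iff, h3]
      refine ⟨fun ⟨⟨⟨a, b⟩, c⟩, d⟩ => ⟨fun j hj => ?_, fun j hj hj' => ?_⟩, fun ⟨a, b⟩ =>
        ⟨⟨⟨fun j hj => a j (Fin.le_of_lt hj), fun j hj => b j (Fin.le_of_lt hj)⟩,
          b k le_rfl (by omega)⟩, a k le_rfl⟩⟩
      · exact hj.eq_or_lt.elim (· ▸ d) (a j)
      · exact hj.eq_or_lt.elim (· ▸ c) (b j · hj')
    · have : A ⊔ M k ≤ Subgroup.centralizer (M i) := sup_le (cent _ (fun j hj =>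
        cMS i j (by omega) (by omega) (by omega)) fun j _ => cMM i j (by omega))
        fun s hs m hm => cMM i k (by omega) (by omega) m hm s hs
      exact (this (St.stab_le hg e) m hm).symm

/-- The graph of a homomorphism defined on a subgroup. -/
def graph {G H : Type*} [Group G] [Group H] {A : Subgroup G} (f : A →* H) : Subgroup (G × H) :=
  (A.subtype.prod f).range

theorem map_graph {G H : Type*} [Group G] [Group H] {A : Subgroup G} (f : A →* H) :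
    (graph f).map (MonoidHom.fst G H) = A := by
  rw [graph, MonoidHom.map_range, MonoidHom.fst_comp_prod, Subgroup.range_subtype]

theorem inj_graph {G H : Type*} [Group G] [Group H] {A : Subgroup G} (f : A →* H) :
    Inj (MonoidHom.fst G H) (graph f) := by
  rintro _ ⟨g, rfl⟩ h
  rw [show g = 1 from Subtype.ext h, map_one]

theorem inj_sup {G H : Type*} [Group G] [Group H] {A A' : Subgroup G} {f : A →* H} {f' : A' →* H}
    (h : ∃ Ψ : ↥(A ⊔ A') →* H, (∀ g (hg : g ∈ A), Ψ ⟨g, Subgroup.mem_sup_left hg⟩ = f ⟨g, hg⟩) ∧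
      ∀ g (hg : g ∈ A'), Ψ ⟨g, Subgroup.mem_sup_right hg⟩ = f' ⟨g, hg⟩) :
    Inj (MonoidHom.fst G H) (graph f ⊔ graph f') := by
  obtain ⟨Ψ, h1, h2⟩ := h
  have : graph f ⊔ graph f' ≤ graph Ψ := by
    refine sup_le ?_ ?_ <;> rintro _ ⟨g, rfl⟩
    exacts [⟨⟨g, Subgroup.mem_sup_left g.2⟩, Prod.ext rfl (h1 _ g.2)⟩,
      ⟨⟨g, Subgroup.mem_sup_right g.2⟩, Prod.ext rfl (h2 _ g.2)⟩]
  exact fun g hg => inj_graph Ψ g (this hg)

end Cfsg.Agent.CT.Sp
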